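import Cfsg.Agent.Lib.Spor.Cent3
import Cfsg.Agent.Lib.Spor.Ly.Top
import Cfsg.Agent.Lib.Spor.LyB.Lift
import Cfsg.Agent.Lib.Spor.LyC.Lift
import Cfsg.Agent.Lib.Spor.LyD.Lift
import Cfsg.Prelude.Def_Sporadic

set_option autoImplicit false
set_option maxRecDepth 100000

namespace Cfsg.Agent.Spor.Ly
open Cfsg.Agent.PG Cfsg.Agent.Spor Cfsg.Agent.Spor.LyA Subgroup

/-- the small claims -/
noncomputable def smL : List Claim :=
  [(powP [gw 3] 37, []), (powP [gw 4] 67, []), (powP (gw 3 :: uw) (2 * 4 + 1), []), (uw ++ uw, []),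
    (powP [gw 5] 2, []), (powP [gw 15] 3, []), ([gw 5], czz), ([gw 15], czx), (sqw ++ sqw, [gw 5])]

/-- the claims about the letters -/
structure Cl {Γ : Type} [Group Γ] (γ : ℕ → Γ) : Prop where
  h0 : ∀ j, 68 ≤ j → γ j = 1
  lift0 : Lift A γ 63
  clT : ∀ c ∈ dcClaims 62 64 cjT repsT, HoldsG γ c
  mxc : ∀ c ∈ mxClaims mxT, HoldsG γ c
  gn : ∀ c ∈ genClaims gn_g, HoldsG γ c
  ga : ∀ c ∈ genClaims ga_g, HoldsG γ c
  gb : ∀ c ∈ genClaims gb_g, HoldsG γ c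
  ceqz : ∀ c ∈ eqClaims (cgz ++ tgz) cwz, HoldsG γ c
  syp : ∀ c ∈ syPos czz (((repsT.zip lvsT).drop 1).zip ssz), HoldsG γ c
  syn : ∀ c ∈ ((syNeg (((repsT.zip lvsT).drop 1).zip ssz)).zip syn_p).map Prod.fst, ¬ HoldsG γ c
  cme : ∀ c ∈ cmLet [gw 49] 63 68, HoldsG γ c
  ceqx : ∀ c ∈ eqClaims cgx cwx, HoldsG γ c
  cgoodx : ∀ c ∈ goodClaims (repsT.zip csx), HoldsG γ c
  cbadx : ∀ c ∈ ((badClaims czx cbx (repsT.zip csx)).zip cbadx_p).map Prod.fst, ¬ HoldsG γ c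
  md8 : ∀ c ∈ modClaims LyB.cl8_l mdw8, HoldsG γ c
  md7 : ∀ c ∈ modClaims LyB.cl7_l mdw7, HoldsG γ c
  md6 : ∀ c ∈ modClaims LyB.cl6_l mdw6, HoldsG γ c
  md5 : ∀ c ∈ modClaims LyB.cl5_l mdw5, HoldsG γ c
  md4 : ∀ c ∈ modClaims LyB.cl4_l mdw4, HoldsG γ c
  md3 : ∀ c ∈ modClaims LyB.cl3_l mdw3, HoldsG γ c
  md2 : ∀ c ∈ modClaims LyB.cl2_l mdw2, HoldsG γ c
  md1 : ∀ c ∈ modClaims LyB.cl1_l mdw1, HoldsG γ c
  md0 : ∀ c ∈ modClaims LyB.cl0_l mdw0, HoldsG γ c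
  mc5 : ∀ c ∈ modClaims LyC.cl5_l mcw5, HoldsG γ c
  mc4 : ∀ c ∈ modClaims LyC.cl4_l mcw4, HoldsG γ c
  mc3 : ∀ c ∈ modClaims LyC.cl3_l mcw3, HoldsG γ c
  mc2 : ∀ c ∈ modClaims LyC.cl2_l mcw2, HoldsG γ c
  mc1 : ∀ c ∈ modClaims LyC.cl1_l mcw1, HoldsG γ c
  mc0 : ∀ c ∈ modClaims LyC.cl0_l mcw0, HoldsG γ c
  mb6 : ∀ c ∈ modClaims LyD.cl6_l mbw6, HoldsG γ c
  mb5 : ∀ c ∈ modClaims LyD.cl5_l mbw5, HoldsG γ c
  mb4 : ∀ c ∈ modClaims LyD.cl4_l mbw4, HoldsG γ c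
  mb3 : ∀ c ∈ modClaims LyD.cl3_l mbw3, HoldsG γ c
  mb2 : ∀ c ∈ modClaims LyD.cl2_l mbw2, HoldsG γ c
  mb1 : ∀ c ∈ modClaims LyD.cl1_l mbw1, HoldsG γ c
  mb0 : ∀ c ∈ modClaims LyD.cl0_l mbw0, HoldsG γ c
  cmz : ∀ c ∈ cmLet [gw 5] 5 15, HoldsG γ c
  cmx : ∀ c ∈ cmLet [gw 15] 15 22, HoldsG γ c
  sm : ∀ c ∈ smL, HoldsG γ c
  ng : ∀ c ∈ ng_l.map Prod.fst, ¬ HoldsG γ c

variable {Γ : Type} [Group Γ] {γ : ℕ → Γ}

theorem Cl.top (h : Cl γ) : TopOK A γ 62 64 0 OT cjT repsT := ⟨stab0, shT, rok, h.clT⟩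

theorem Cl.inG (h : Cl γ) : ∀ j, 0 ≤ j → j < 22 → γ j ∈ KG γ 62 :=
  mem_of_genRun (a := 62) (b := 68) (fun _ h _ => mem_KG γ h) (by decide +kernel) h.gn

theorem Cl.pw (h : Cl γ) {j p : ℕ} (hj : j < 128) (hm : (powP [gw j] p, []) ∈ smL) :
    γ j ^ p = 1 := by
  simpa [HoldsG, ppG_powP, spG_gw γ hj] using h.sm _ hm

theorem Cl.ne (h : Cl γ) {j : ℕ} (hj : j < 128) (hm : ([gw j], []) ∈ ng_l.map Prod.fst) :
    γ j ≠ 1 := by
  simpa [HoldsG, spG_gw γ hj] using h.ng _ hm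

theorem Cl.g2 (h : Cl γ) : IsSimpleGroup (KG γ 63) ∧ Nat.card (KG γ 63) = 5859000000 := by
  have := LyD.simple0
  have hN := nz_zero γ 22 29
  obtain ⟨e⟩ := iso_of_win (by norm_num) (LyD.liftAll (γ := barG γ (KW γ 0 0) 22 29)
    (fun j hj => barG_of_le γ _ hj)
    (holds_mod hN mbok6 h.mb6) (holds_mod hN mbok5 h.mb5) (holds_mod hN mbok4 h.mb4)
      (holds_mod hN mbok3 h.mb3) (holds_mod hN mbok2 h.mb2) (holds_mod hN mbok1 h.mb1)
      (holds_mod hN mbok0 h.mb0)) (h.ne (by norm_num) (by decide +kernel))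
  have e1 : KW γ 22 29 = KG γ 63 := le_antisymm (KW_le (mem_of_genRun (a := 63) (b := 68)
    (fun _ h _ => mem_KG γ h) (by decide +kernel) h.gb)) (KG_le_of_lt h.h0 (mem_of_genRun (a := 22)
    (b := 29) (fun _ => mem_KW γ) (by decide +kernel) h.ga))
  exact e1 ▸ simple_card_congr e.symm ⟨this, LyD.card0⟩

theorem Cl.inj (h : Cl γ) {φ : K A 63 →* Γ} (hφ : IsLift A γ 63 φ) : Function.Injective φ :=
  haveI := finite_K hA 63
  inj_of_card hφ (card0.trans h.g2.2.symm)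

variable [Finite Γ]

theorem Cl.dz (h : Cl γ) : (∀ y ∈ KW γ 5 15, Commute y (γ 5)) ∧
    Nat.card (center (KW γ 5 15)) = 2 ∧
    Nonempty (KW γ 5 15 ⧸ center (KW γ 5 15) ≃* K LyB.A 6) :=
  haveI := LyB.simple0
  haveI := finite_K LyB.hA 6
  cext (a := 5) Nat.prime_two (by norm_num) (by norm_num) (by rw [LyB.card0]; norm_num) h.cmz
    (fun hN => LyB.liftAll (fun j hj => barG_of_le γ _ hj)
    (holds_mod hN mdok8 h.md8) (holds_mod hN mdok7 h.md7) (holds_mod hN mdok6 h.md6)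
      (holds_mod hN mdok5 h.md5) (holds_mod hN mdok4 h.md4) (holds_mod hN mdok3 h.md3)
      (holds_mod hN mdok2 h.md2) (holds_mod hN mdok1 h.md1) (holds_mod hN mdok0 h.md0)
     ) (h.pw (by norm_num) (by simp [smL]))
    (h.ne (by norm_num) (by decide +kernel)) (h.ng _ (by decide +kernel))

theorem Cl.dx (h : Cl γ) : (∀ y ∈ KW γ 15 22, Commute y (γ 15)) ∧
    Nat.card (center (KW γ 15 22)) = 3 ∧
    Nonempty (KW γ 15 22 ⧸ center (KW γ 15 22) ≃* K LyC.A 16) :=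
  haveI := LyC.simple0
  haveI := finite_K LyC.hA 16
  cext (a := 15) Nat.prime_three (by norm_num) (by norm_num) (by rw [LyC.card0]; norm_num) h.cmx
    (fun hN => LyC.liftAll (fun j hj => barG_of_le γ _ hj)
    (holds_mod hN mcok5 h.mc5) (holds_mod hN mcok4 h.mc4) (holds_mod hN mcok3 h.mc3)
      (holds_mod hN mcok2 h.mc2) (holds_mod hN mcok1 h.mc1) (holds_mod hN mcok0 h.mc0)
     ) (h.pw (by norm_num) (by simp [smL]))
    (h.ne (by norm_num) (by decide +kernel)) (h.ng _ (by decide +kernel))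

omit [Finite Γ] in
theorem Cl.le (h : Cl γ) {a b : ℕ} (hb : b ≤ 22) : KW γ a b ≤ KG γ 62 :=
  KW_le fun j _ _ => h.inG j (Nat.zero_le _) (by omega)

theorem Cl.isLy (h : Cl γ) : IsLy (KG γ 62) := by
  obtain ⟨φ, hφ⟩ := h.lift0
  obtain ⟨hs, hc⟩ := h.g2
  obtain ⟨hf, hle⟩ := top_card_le hA hφ h.top (by decide +kernel) lbr card0
  have hle' : KG γ 63 ≤ KG γ 62 := KG_mono γ (by norm_num)
  have y1 : γ 3 ^ 37 = 1 := h.pw (by norm_num) (by simp [smL])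
  have y2 : γ 3 ≠ 1 := h.ne (by norm_num) (by decide +kernel)
  have u1 : (γ 3 * Spor.ppG γ uw) ^ (2 * 4 + 1) = 1 := by
    simpa [HoldsG, ppG_powP, spG_gw] using h.sm (powP (gw 3 :: uw) (2 * 4 + 1), []) (by simp [smL])
  have u2 : Spor.ppG γ uw * Spor.ppG γ uw = 1 := by
    simpa [HoldsG, ppG_append] using h.sm (uw ++ uw, []) (by simp [smL])
  have u3 : Spor.ppG γ uw ∈ KG γ 63 := ppG_mem (by decide +kernel)
  refine ⟨simple_of_top hle' (top_max hA hφ h.top mxok h.mxc)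
    (core_of_simple hle' (mem_KG γ le_rfl) (mem_KG γ le_rfl) (comm_KG (by norm_num) h.h0 h.cme) (by
      have := h.ng ([gw 62, gw 63, gw 62 + 1, gw 49], [gw 49, gw 62, gw 63, gw 62 + 1])
        (by decide +kernel)
      simpa [HoldsG, spG_gw, spG_gw_inv, Commute, SemiconjBy, mul_assoc] using this))
    (p := 37) (by norm_num) (by rw [hc]; norm_num)
    (h.inG 3 (by norm_num) (by norm_num)) y1 y2 fun M hM hy =>
      le_of_simple (fun g hg => hM g (hle' hg)) u3 (mem_of_odd hM hy (hle' u3) u1 u2)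
        (h.ng (uw, []) (by decide +kernel)), ?_⟩
  obtain ⟨-, a1, ⟨a2⟩⟩ := h.dz
  obtain ⟨-, b1, ⟨b2⟩⟩ := h.dx
  have d1 := card_dvd_of_le (h.le (a := 5) (b := 15) (by norm_num))
  have d2 := card_dvd_of_le (h.le (a := 15) (b := 22) le_rfl)
  have d3 := prime_dvd_card (by norm_num) (h.inG 3 (by norm_num) (by norm_num)) y1 y2
  have d4 := prime_dvd_card (p := 67) (by norm_num) (h.inG 4 (by norm_num) (by norm_num))
    (h.pw (by norm_num) (by simp [smL])) (h.ne (by norm_num) (by decide +kernel))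
  have d5 := card_dvd_of_le hle'
  rw [card_of_center a1 a2 LyB.card0] at d1
  rw [card_of_center b1 b2 LyC.card0] at d2
  rw [hc] at d5
  have d := Nat.lcm_dvd (Nat.lcm_dvd (Nat.lcm_dvd (Nat.lcm_dvd d1 d2) d3) d4) d5
  exact le_antisymm (hle.trans (by decide +kernel))
    (le_trans (by decide +kernel) (Nat.le_of_dvd Nat.card_pos d))

theorem Cl.centx (h : Cl γ) : ∃ x : KG γ 62, orderOf x = 3 ∧
    Nat.card (center (centralizer ({x} : Set (KG γ 62)))) = 3 ∧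
    IsMcL (centralizer ({x} : Set (KG γ 62)) ⧸ center (centralizer ({x} : Set (KG γ 62)))) := by
  have : Fact (Nat.Prime 3) := ⟨Nat.prime_three⟩
  obtain ⟨φ, hφ⟩ := h.lift0
  obtain ⟨h1, h3, ⟨e⟩⟩ := h.dx
  have hz : γ 15 = Spor.ppG γ czx := by
    simpa [HoldsG, spG_gw] using h.sm ([gw 15], czx) (by simp [smL])
  have hm : ∀ j, (ivl 15 22).testBit j = true → γ j ∈ KW γ 15 22 := fun j hj =>
    mem_KW γ ((testBit_ivl _ _ _).1 hj).1 ((testBit_ivl _ _ _).1 hj).2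
  have h2 := top_cent hA hφ h.top (z := czx) (b := cbx) (fun x hx =>
      comm_KG (by norm_num) h.h0 h.cme _
        (mul_mem (mul_mem hx (ppG_mem LyA.centx.mem)) (inv_mem hx))) (hz ▸ h1)
    (LyA.centx.sub hφ (h.inj hφ)
      (mem_of_eqClaims hm (by decide +kernel) (by decide +kernel) h.ceqx))
    hm (LyA.centx.comm hφ) LyA.centx.closed (by decide +kernel) crkx
    (neg_zip (by decide +kernel) h.cbadx) h.cgoodx
  rw [← hz] at h2
  have f := centEquiv (h.inG 15 (by norm_num) (by norm_num)) (h.le le_rfl) h1 h2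
  exact ⟨_, (orderOf_injective _ (KG γ 62).subtype_injective _).symm.trans
    (orderOf_eq_prime (h.pw (by norm_num) (by simp [smL])) (h.ne (by norm_num) (by decide +kernel))),
    (card_center_congr f).trans h3,
    simple_card_congr ((quotCenterCongr f).trans e).symm ⟨LyC.simple0, LyC.card0⟩⟩

theorem alt : Nonempty (K LyB.A 6 ≃* alternatingGroup (Fin 11)) :=
  haveI := LyB.simple0
  iso_alt (by norm_num) (fun σ hσ i => by
    simpa [mem_bset_ivl] using K_bset LyB.hA (LyB.hlen ▸ by norm_num) (t := 6)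
      (v := ivl 0 11) (by decide +kernel) σ hσ i)
    ⟨_, pp_mem (l := [gw 6]) (by decide +kernel), 0, by norm_num,
      moved_of_not_mapsB LyB.hA (by decide +kernel)⟩ (by rw [LyB.card0]; decide +kernel)

theorem Cl.centz (h : Cl γ) : ∃ z : KG γ 62, orderOf z = 2 ∧
    IsNonsplitDoubleCover (centralizer ({z} : Set (KG γ 62))) (alternatingGroup (Fin 11)) := by
  have : Fact (Nat.Prime 2) := ⟨Nat.prime_two⟩
  obtain ⟨φ, hφ⟩ := h.lift0
  obtain ⟨h1, h3, ⟨e⟩⟩ := h.dz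
  obtain ⟨a⟩ := alt
  have hz : γ 5 = Spor.ppG γ czz := by
    simpa [HoldsG, spG_gw] using h.sm ([gw 5], czz) (by simp [smL])
  have hm : ∀ j, (ivl 5 15).testBit j = true → γ j ∈ KW γ 5 15 := fun j hj =>
    mem_KW γ ((testBit_ivl _ _ _).1 hj).1 ((testBit_ivl _ _ _).1 hj).2
  have z1 : γ 5 ≠ 1 := h.ne (by norm_num) (by decide +kernel)
  have z2 : γ 5 ^ 2 = 1 := h.pw (by norm_num) (by simp [smL])
  have h2 := top_cent2 hA hφ (h.inj hφ) h.top (by decide +kernel)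
    (top_stab_card hA hφ h.top (by decide +kernel) lbr card0 (by decide +kernel)
      (h.isLy.2.trans (by decide +kernel))) (z := czz) (ppG_mem (by decide +kernel)) (hz ▸ z1)
    (by rw [← hz, ← sq, z2]) (hz ▸ h1)
    (cent_chain hA hφ (h.inj hφ) (by decide +kernel) (by decide +kernel) ccmz cchz
      (card0.trans (by decide +kernel))
      (mem_of_eqClaims hm (by decide +kernel) (by decide +kernel) h.ceqz))
    hm (by decide +kernel) syok h.syp (neg_zip (by decide +kernel) h.syn)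
  rw [← hz] at h2
  have f := centEquiv (h.inG 5 (by norm_num) (by norm_num)) (h.le (by norm_num)) h1 h2
  have s1 : Spor.ppG γ sqw * Spor.ppG γ sqw = γ 5 := by
    simpa [HoldsG, ppG_append, spG_gw] using h.sm (sqw ++ sqw, [gw 5]) (by simp [smL])
  have s2 : Spor.ppG γ sqw ∈ KW γ 5 15 :=
    mem_of_eqClaims hm (gens := [sqw]) (ws := [sqw.headD 0 / 2]) rfl (by decide +kernel)
      (fun c hc => by rw [List.mem_singleton.1 hc]; rfl) _ List.mem_cons_self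
  refine ⟨_, (orderOf_injective _ (KG γ 62).subtype_injective _).symm.trans
    (orderOf_eq_prime z2 z1), nonsplit_congr f.symm (nonsplit_of h3 (e.trans a) (x := ⟨_, s2⟩)
      (y := 1) (mem_center_iff.2 fun y => Subtype.ext ?_) fun e => z1 ?_)⟩
  · simpa [s1] using (h1 y y.2).eq
  · simpa [s1] using congrArg Subtype.val e

end Cfsg.Agent.Spor.Ly
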