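import Cfsg.Agent.Lib.Spor.Ly.Main
import Cfsg.Agent.Lib.Spor.Ly.Fin

set_option autoImplicit false

namespace Cfsg.Agent.Spor.Ly

theorem cl : Cl γ :=
  ⟨fun _ hj => γ_of_le (lenL ▸ hj), lift0, clT, mxc, gn, ga, gb, ceqz, syp, syn, cme, ceqx, cgoodx, cbadx, md8, md7, md6, md5, md4, md3, md2, md1, md0, mc5, mc4, mc3, mc2, mc1, mc0, mb6, mb5, mb4, mb3, mb2, mb1, mb0, cmz, cmx, sm, ng⟩

instance : Finite (GL (Fin P.n) (ZMod P.p)) := inferInstanceAs (Finite (GL (Fin 111) (ZMod 5)))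

end Cfsg.Agent.Spor.Ly
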