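import Cfsg.Agent.Lib.Spor.Ly.Data
import Cfsg.Agent.Lib.Spor.LyA.Defs
import Cfsg.Agent.Lib.Spor.Ly.Top

set_option autoImplicit false
set_option maxRecDepth 100000
set_option Elab.async false
set_option exponentiation.threshold 100000

namespace Cfsg.Agent.Spor.Ly
open Cfsg.Agent.PG Cfsg.Agent.Spor Cfsg.Agent.Spor.LyA

theorem mcl4_0 : chkR P L 0 111 (LyA.cl4_l) = true := by decide +kernel

theorem mcl3_0 : chkR P L 0 111 (LyA.cl3_l) = true := by decide +kernel

theorem mcl2_0 : chkR P L 0 111 ((LyA.cl2_l).take 33) = true := by decide +kernel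

theorem mcl2_1 : chkR P L 0 111 (((LyA.cl2_l).drop 33).take 23) = true := by decide +kernel

theorem mcl2_2 : chkR P L 0 111 ((((LyA.cl2_l).drop 33).drop 23).take 23) = true := by decide +kernel

theorem mcl2_3 : chkR P L 0 111 (((((LyA.cl2_l).drop 33).drop 23).drop 23).take 21) = true := by decide +kernel

theorem mcl2_4 : chkR P L 0 111 (((((LyA.cl2_l).drop 33).drop 23).drop 23).drop 21) = true := by decide +kernel

theorem mcl1_0 : chkR P L 0 111 ((LyA.cl1_l).take 21) = true := by decide +kernel

theorem mcl1_1 : chkR P L 0 111 (((LyA.cl1_l).drop 21).take 15) = true := by decide +kernel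

theorem mcl1_2 : chkR P L 0 111 ((((LyA.cl1_l).drop 21).drop 15).take 16) = true := by decide +kernel

theorem mcl1_3 : chkR P L 0 111 ((((LyA.cl1_l).drop 21).drop 15).drop 16) = true := by decide +kernel

theorem mcl0_0 : chkR P L 0 111 ((LyA.cl0_l).take 18) = true := by decide +kernel

theorem mcl0_1 : chkR P L 0 111 (((LyA.cl0_l).drop 18).take 10) = true := by decide +kernel

theorem mcl0_2 : chkR P L 0 111 ((((LyA.cl0_l).drop 18).drop 10).take 10) = true := by decide +kernel

theorem mcl0_3 : chkR P L 0 111 ((((LyA.cl0_l).drop 18).drop 10).drop 10) = true := by decide +kernel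

theorem clT_0 : chkR P L 0 111 ((dcClaims 62 64 cjT repsT).take 20) = true := by decide +kernel

theorem clT_1 : chkR P L 0 111 (((dcClaims 62 64 cjT repsT).drop 20).take 9) = true := by decide +kernel

theorem clT_2 : chkR P L 0 111 ((((dcClaims 62 64 cjT repsT).drop 20).drop 9).take 8) = true := by decide +kernel

theorem clT_3 : chkR P L 0 111 (((((dcClaims 62 64 cjT repsT).drop 20).drop 9).drop 8).take 8) = true := by decide +kernel

end Cfsg.Agent.Spor.Ly
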