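import Cfsg.Agent.Lib.Spor.Ly.Data
import Cfsg.Agent.Lib.Spor.LyA.Defs
import Cfsg.Agent.Lib.Spor.Ly.Top

set_option autoImplicit false
set_option maxRecDepth 100000
set_option Elab.async false
set_option exponentiation.threshold 100000

namespace Cfsg.Agent.Spor.Ly
open Cfsg.Agent.PG Cfsg.Agent.Spor Cfsg.Agent.Spor.LyA

theorem clT_4 : chkR P L 0 111 ((((((dcClaims 62 64 cjT repsT).drop 20).drop 9).drop 8).drop 8).take 8) = true := by decide +kernel

theorem clT_5 : chkR P L 0 111 (((((((dcClaims 62 64 cjT repsT).drop 20).drop 9).drop 8).drop 8).drop 8).take 8) = true := by decide +kernel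

theorem clT_6 : chkR P L 0 111 ((((((((dcClaims 62 64 cjT repsT).drop 20).drop 9).drop 8).drop 8).drop 8).drop 8).take 8) = true := by decide +kernel

theorem clT_7 : chkR P L 0 111 (((((((((dcClaims 62 64 cjT repsT).drop 20).drop 9).drop 8).drop 8).drop 8).drop 8).drop 8).take 9) = true := by decide +kernel

theorem clT_8 : chkR P L 0 111 (((((((((dcClaims 62 64 cjT repsT).drop 20).drop 9).drop 8).drop 8).drop 8).drop 8).drop 8).drop 9) = true := by decide +kernel

theorem mxc_0 : chkR P L 0 111 (mxClaims mxT) = true := by decide +kernel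

theorem gn_0 : chkR P L 0 111 ((genClaims gn_g).take 12) = true := by decide +kernel

theorem gn_1 : chkR P L 0 111 ((genClaims gn_g).drop 12) = true := by decide +kernel

theorem ga_0 : chkR P L 0 111 (genClaims ga_g) = true := by decide +kernel

theorem gb_0 : chkR P L 0 111 (genClaims gb_g) = true := by decide +kernel

theorem ceqz_0 : chkR P L 0 111 (eqClaims (cgz ++ tgz) cwz) = true := by decide +kernel

theorem syp_0 : chkR P L 0 111 ((syPos czz (((repsT.zip lvsT).drop 1).zip ssz)).take 29) = true := by decide +kernel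

theorem syp_1 : chkR P L 0 111 (((syPos czz (((repsT.zip lvsT).drop 1).zip ssz)).drop 29).take 9) = true := by decide +kernel

theorem syp_2 : chkR P L 0 111 ((((syPos czz (((repsT.zip lvsT).drop 1).zip ssz)).drop 29).drop 9).take 32) = true := by decide +kernel

theorem syp_3 : chkR P L 0 111 (((((syPos czz (((repsT.zip lvsT).drop 1).zip ssz)).drop 29).drop 9).drop 32).take 9) = true := by decide +kernel

theorem syp_4 : chkR P L 0 111 ((((((syPos czz (((repsT.zip lvsT).drop 1).zip ssz)).drop 29).drop 9).drop 32).drop 9).take 9) = true := by decide +kernel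

theorem syp_5 : chkR P L 0 111 (((((((syPos czz (((repsT.zip lvsT).drop 1).zip ssz)).drop 29).drop 9).drop 32).drop 9).drop 9).take 8) = true := by decide +kernel

theorem syp_6 : chkR P L 0 111 ((((((((syPos czz (((repsT.zip lvsT).drop 1).zip ssz)).drop 29).drop 9).drop 32).drop 9).drop 9).drop 8).take 8) = true := by decide +kernel

theorem syp_7 : chkR P L 0 111 (((((((((syPos czz (((repsT.zip lvsT).drop 1).zip ssz)).drop 29).drop 9).drop 32).drop 9).drop 9).drop 8).drop 8).take 8) = true := by decide +kernel

end Cfsg.Agent.Spor.Ly
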