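import Cfsg.Agent.Lib.Spor.Ly.Data
import Cfsg.Agent.Lib.Spor.LyA.Defs
import Cfsg.Agent.Lib.Spor.Ly.Top

set_option autoImplicit false
set_option maxRecDepth 100000
set_option Elab.async false
set_option exponentiation.threshold 100000

namespace Cfsg.Agent.Spor.Ly
open Cfsg.Agent.PG Cfsg.Agent.Spor Cfsg.Agent.Spor.LyA

theorem md0_0 : chkR P L 0 111 (modClaims LyB.cl0_l mdw0) = true := by decide +kernel

theorem mc5_0 : chkR P L 0 111 (modClaims LyC.cl5_l mcw5) = true := by decide +kernel

theorem mc4_0 : chkR P L 0 111 (modClaims LyC.cl4_l mcw4) = true := by decide +kernel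

theorem mc3_0 : chkR P L 0 111 (modClaims LyC.cl3_l mcw3) = true := by decide +kernel

theorem mc2_0 : chkR P L 0 111 (modClaims LyC.cl2_l mcw2) = true := by decide +kernel

theorem mc1_0 : chkR P L 0 111 (modClaims LyC.cl1_l mcw1) = true := by decide +kernel

theorem mc0_0 : chkR P L 0 111 (modClaims LyC.cl0_l mcw0) = true := by decide +kernel

theorem mb6_0 : chkR P L 0 111 (modClaims LyD.cl6_l mbw6) = true := by decide +kernel

theorem mb5_0 : chkR P L 0 111 (modClaims LyD.cl5_l mbw5) = true := by decide +kernel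

theorem mb4_0 : chkR P L 0 111 (modClaims LyD.cl4_l mbw4) = true := by decide +kernel

theorem mb3_0 : chkR P L 0 111 (modClaims LyD.cl3_l mbw3) = true := by decide +kernel

theorem mb2_0 : chkR P L 0 111 (modClaims LyD.cl2_l mbw2) = true := by decide +kernel

theorem mb1_0 : chkR P L 0 111 (modClaims LyD.cl1_l mbw1) = true := by decide +kernel

theorem mb0_0 : chkR P L 0 111 ((modClaims LyD.cl0_l mbw0).take 22) = true := by decide +kernel

theorem mb0_1 : chkR P L 0 111 ((modClaims LyD.cl0_l mbw0).drop 22) = true := by decide +kernel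

theorem cmz_0 : chkR P L 0 111 (cmLet [gw 5] 5 15) = true := by decide +kernel

theorem cmx_0 : chkR P L 0 111 (cmLet [gw 15] 15 22) = true := by decide +kernel

theorem sm_0 : chkR P L 0 111 ([(powP [gw 3] 37, []), (powP [gw 4] 67, []), (powP (gw 3 :: uw) (2 * 4 + 1), []), (uw ++ uw, []), (powP [gw 5] 2, []), (powP [gw 15] 3, []), ([gw 5], czz), ([gw 15], czx), (sqw ++ sqw, [gw 5])]) = true := by decide +kernel

theorem ng_0 : chkN P L (ng_l) = true := by decide +kernel

end Cfsg.Agent.Spor.Ly
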