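import Cfsg.Agent.Lib.Spor.Ly.Data
import Cfsg.Agent.Lib.Spor.LyA.Defs
import Cfsg.Agent.Lib.Spor.Ly.Top
import Cfsg.Agent.Lib.Spor.Ly.C0
import Cfsg.Agent.Lib.Spor.Ly.C1
import Cfsg.Agent.Lib.Spor.Ly.C2
import Cfsg.Agent.Lib.Spor.Ly.C3
import Cfsg.Agent.Lib.Spor.LyA.Main

set_option autoImplicit false
set_option maxRecDepth 100000
set_option Elab.async false
set_option exponentiation.threshold 100000

namespace Cfsg.Agent.Spor.Ly
open Cfsg.Agent.PG Cfsg.Agent.Spor Cfsg.Agent.Spor.LyA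

noncomputable abbrev γ : ℕ → GL (Fin P.n) (ZMod P.p) := gam P L

theorem γ_of_le {j : ℕ} (h : L.length ≤ j) : γ j = 1 := gam_of_le P h

theorem hγ : ∀ j, LyA.A.length ≤ j → γ j = 1 := fun j hj => γ_of_le (by rw [LyA.hlen] at hj; rw [lenL]; exact hj)

theorem lift5 : Lift LyA.A γ 68 := lift_last fun j hj => hγ j (by rw [LyA.hlen]; exact hj)

theorem mcl4 : ∀ c ∈ LyA.cl4_l, HoldsG γ c :=
  (chkM_spec good mcl4_0)

theorem lift4 : Lift LyA.A γ 67 :=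
  lift_plain LyA.hA hγ lift5 LyA.ok4 LyA.cl4 mcl4

theorem mcl3 : ∀ c ∈ LyA.cl3_l, HoldsG γ c :=
  (chkM_spec good mcl3_0)

theorem lift3 : Lift LyA.A γ 66 :=
  lift_plain LyA.hA hγ lift4 LyA.ok3 LyA.cl3 mcl3

theorem mcl2 : ∀ c ∈ LyA.cl2_l, HoldsG γ c :=
  (forall_take_drop 33 (chkM_spec good mcl2_0)
  (forall_take_drop 23 (chkM_spec good mcl2_1)
  (forall_take_drop 23 (chkM_spec good mcl2_2)
  (forall_take_drop 21 (chkM_spec good mcl2_3)
  (chkM_spec good mcl2_4)))))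

theorem lift2 : Lift LyA.A γ 65 :=
  lift_dc LyA.hA hγ lift3 LyA.stab3 LyA.ok2 LyA.cl2 mcl2

theorem mcl1 : ∀ c ∈ LyA.cl1_l, HoldsG γ c :=
  (forall_take_drop 21 (chkM_spec good mcl1_0)
  (forall_take_drop 15 (chkM_spec good mcl1_1)
  (forall_take_drop 16 (chkM_spec good mcl1_2)
  (chkM_spec good mcl1_3))))

theorem lift1 : Lift LyA.A γ 64 :=
  lift_dc LyA.hA hγ lift2 LyA.stab2 LyA.ok1 LyA.cl1 mcl1

theorem mcl0 : ∀ c ∈ LyA.cl0_l, HoldsG γ c :=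
  (forall_take_drop 18 (chkM_spec good mcl0_0)
  (forall_take_drop 10 (chkM_spec good mcl0_1)
  (forall_take_drop 10 (chkM_spec good mcl0_2)
  (chkM_spec good mcl0_3))))

theorem lift0 : Lift LyA.A γ 63 :=
  lift_dc LyA.hA hγ lift1 LyA.stab1 LyA.ok0 LyA.cl0 mcl0

theorem clT : ∀ c ∈ dcClaims 62 64 cjT repsT, HoldsG γ c :=
  (forall_take_drop 20 (chkM_spec good clT_0)
  (forall_take_drop 9 (chkM_spec good clT_1)
  (forall_take_drop 8 (chkM_spec good clT_2)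
  (forall_take_drop 8 (chkM_spec good clT_3)
  (forall_take_drop 8 (chkM_spec good clT_4)
  (forall_take_drop 8 (chkM_spec good clT_5)
  (forall_take_drop 8 (chkM_spec good clT_6)
  (forall_take_drop 9 (chkM_spec good clT_7)
  (chkM_spec good clT_8)))))))))

theorem mxc : ∀ c ∈ mxClaims mxT, HoldsG γ c :=
  (chkM_spec good mxc_0)

theorem gn : ∀ c ∈ genClaims gn_g, HoldsG γ c :=
  (forall_take_drop 12 (chkM_spec good gn_0)
  (chkM_spec good gn_1))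

theorem ga : ∀ c ∈ genClaims ga_g, HoldsG γ c :=
  (chkM_spec good ga_0)

theorem gb : ∀ c ∈ genClaims gb_g, HoldsG γ c :=
  (chkM_spec good gb_0)

theorem ceqz : ∀ c ∈ eqClaims (cgz ++ tgz) cwz, HoldsG γ c :=
  (chkM_spec good ceqz_0)

theorem syp : ∀ c ∈ syPos czz (((repsT.zip lvsT).drop 1).zip ssz), HoldsG γ c :=
  (forall_take_drop 29 (chkM_spec good syp_0)
  (forall_take_drop 9 (chkM_spec good syp_1)
  (forall_take_drop 32 (chkM_spec good syp_2)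
  (forall_take_drop 9 (chkM_spec good syp_3)
  (forall_take_drop 9 (chkM_spec good syp_4)
  (forall_take_drop 8 (chkM_spec good syp_5)
  (forall_take_drop 8 (chkM_spec good syp_6)
  (forall_take_drop 8 (chkM_spec good syp_7)
  (forall_take_drop 8 (chkM_spec good syp_8)
  (forall_take_drop 17 (chkM_spec good syp_9)
  (forall_take_drop 11 (chkM_spec good syp_10)
  (forall_take_drop 8 (chkM_spec good syp_11)
  (forall_take_drop 21 (chkM_spec good syp_12)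
  (forall_take_drop 13 (chkM_spec good syp_13)
  (forall_take_drop 9 (chkM_spec good syp_14)
  (chkM_spec good syp_15))))))))))))))))

theorem syn : ∀ c ∈ ((syNeg (((repsT.zip lvsT).drop 1).zip ssz)).zip syn_p).map Prod.fst, ¬ HoldsG γ c :=
  (neg_take_drop 149 (chkN_spec good syn_0)
  (chkN_spec good syn_1))

theorem cme : ∀ c ∈ cmLet [gw 49] 63 68, HoldsG γ c :=
  (chkM_spec good cme_0)

theorem ceqx : ∀ c ∈ eqClaims cgx cwx, HoldsG γ c :=
  (chkM_spec good ceqx_0)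

theorem cgoodx : ∀ c ∈ goodClaims (repsT.zip csx), HoldsG γ c :=
  (chkM_spec good cgoodx_0)

theorem cbadx : ∀ c ∈ ((badClaims czx cbx (repsT.zip csx)).zip cbadx_p).map Prod.fst, ¬ HoldsG γ c :=
  (neg_take_drop 16 (chkN_spec good cbadx_0)
  (neg_take_drop 15 (chkN_spec good cbadx_1)
  (chkN_spec good cbadx_2)))

theorem md8 : ∀ c ∈ modClaims LyB.cl8_l mdw8, HoldsG γ c :=
  (chkM_spec good md8_0)

theorem md7 : ∀ c ∈ modClaims LyB.cl7_l mdw7, HoldsG γ c :=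
  (chkM_spec good md7_0)

theorem md6 : ∀ c ∈ modClaims LyB.cl6_l mdw6, HoldsG γ c :=
  (chkM_spec good md6_0)

theorem md5 : ∀ c ∈ modClaims LyB.cl5_l mdw5, HoldsG γ c :=
  (chkM_spec good md5_0)

theorem md4 : ∀ c ∈ modClaims LyB.cl4_l mdw4, HoldsG γ c :=
  (chkM_spec good md4_0)

theorem md3 : ∀ c ∈ modClaims LyB.cl3_l mdw3, HoldsG γ c :=
  (chkM_spec good md3_0)

theorem md2 : ∀ c ∈ modClaims LyB.cl2_l mdw2, HoldsG γ c :=
  (chkM_spec good md2_0)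

theorem md1 : ∀ c ∈ modClaims LyB.cl1_l mdw1, HoldsG γ c :=
  (chkM_spec good md1_0)

theorem md0 : ∀ c ∈ modClaims LyB.cl0_l mdw0, HoldsG γ c :=
  (chkM_spec good md0_0)

theorem mc5 : ∀ c ∈ modClaims LyC.cl5_l mcw5, HoldsG γ c :=
  (chkM_spec good mc5_0)

theorem mc4 : ∀ c ∈ modClaims LyC.cl4_l mcw4, HoldsG γ c :=
  (chkM_spec good mc4_0)

theorem mc3 : ∀ c ∈ modClaims LyC.cl3_l mcw3, HoldsG γ c :=
  (chkM_spec good mc3_0)

theorem mc2 : ∀ c ∈ modClaims LyC.cl2_l mcw2, HoldsG γ c :=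
  (chkM_spec good mc2_0)

theorem mc1 : ∀ c ∈ modClaims LyC.cl1_l mcw1, HoldsG γ c :=
  (chkM_spec good mc1_0)

theorem mc0 : ∀ c ∈ modClaims LyC.cl0_l mcw0, HoldsG γ c :=
  (chkM_spec good mc0_0)

theorem mb6 : ∀ c ∈ modClaims LyD.cl6_l mbw6, HoldsG γ c :=
  (chkM_spec good mb6_0)

theorem mb5 : ∀ c ∈ modClaims LyD.cl5_l mbw5, HoldsG γ c :=
  (chkM_spec good mb5_0)

theorem mb4 : ∀ c ∈ modClaims LyD.cl4_l mbw4, HoldsG γ c :=
  (chkM_spec good mb4_0)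

theorem mb3 : ∀ c ∈ modClaims LyD.cl3_l mbw3, HoldsG γ c :=
  (chkM_spec good mb3_0)

theorem mb2 : ∀ c ∈ modClaims LyD.cl2_l mbw2, HoldsG γ c :=
  (chkM_spec good mb2_0)

theorem mb1 : ∀ c ∈ modClaims LyD.cl1_l mbw1, HoldsG γ c :=
  (chkM_spec good mb1_0)

theorem mb0 : ∀ c ∈ modClaims LyD.cl0_l mbw0, HoldsG γ c :=
  (forall_take_drop 22 (chkM_spec good mb0_0)
  (chkM_spec good mb0_1))

theorem cmz : ∀ c ∈ cmLet [gw 5] 5 15, HoldsG γ c :=
  (chkM_spec good cmz_0)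

theorem cmx : ∀ c ∈ cmLet [gw 15] 15 22, HoldsG γ c :=
  (chkM_spec good cmx_0)

theorem sm : ∀ c ∈ [(powP [gw 3] 37, []), (powP [gw 4] 67, []), (powP (gw 3 :: uw) (2 * 4 + 1), []), (uw ++ uw, []), (powP [gw 5] 2, []), (powP [gw 15] 3, []), ([gw 5], czz), ([gw 15], czx), (sqw ++ sqw, [gw 5])], HoldsG γ c :=
  (chkM_spec good sm_0)

theorem ng : ∀ c ∈ (ng_l).map Prod.fst, ¬ HoldsG γ c :=
  (chkN_spec good ng_0)

end Cfsg.Agent.Spor.Ly
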